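import Mathlib
import Cfsg.Agent.Lib.Fusion.Apps
import Cfsg.Agent.Lib.Fusion.GroupFactor
import Cfsg.Agent.Lib.Fusion.Iso

/-! # Models of sparse fusion systems and the axiomatic Glauberman–Thompson criterion -/

set_option autoImplicit false
universe u
open Cfsg Cfsg.FusionSystem Subgroup
open scoped commutatorElement

namespace CfsgLib.Fusion

variable {p : ℕ} [Fact p.Prime]

/-- A group with a maximal Sylow `p`-subgroup (`p` odd) has abelian Sylow `q`-subgroups for `q ≠ p`. -/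
theorem sylow_comm_of_sylow_isCoatom (hp2 : p ≠ 2) {G : Type u} [Group G] [Finite G] (T : Sylow p G)
    (hm : IsCoatom (T : Subgroup G)) {q : ℕ} [Fact q.Prime] (hq : p ≠ q) (U : Sylow q G) : IsMulCommutative U := by
  refine CfsgLib.ZJ.sylow_comm_of_isCoatom hq (CfsgLib.Tech.IsSylowIn.of_sylow_top T) ?_ hm U
  have hf := QuotientGroup.mk'_surjective (pCore p G)
  let T' := T.mapSurjective hf
  have hm' : IsCoatom (T' : Subgroup (G ⧸ pCore p G)) := CfsgLib.ZJ.isCoatom_map_of_ker_le hf (by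
    rw [QuotientGroup.ker_mk']; exact CfsgLib.Core.pCore_le_sylow T) hm
  have hsc : IsStronglyClosed (T' : Subgroup (G ⧸ pCore p G)) T' := ⟨le_rfl, fun _ _ _ h => h⟩
  refine CfsgLib.ZJ.hasNormalPComplement_of_zj hp2 (Or.inl rfl) T' hsc ?_
  have hle := le_normalizer.trans (CfsgLib.ZJ.normalizer_le_normalizer_zj (e := 0) (T' : Subgroup (G ⧸ pCore p G)))
  rcases hm'.le_iff.1 hle with h | h
  · have hn := normalizer_eq_top_iff.1 h
    have h1 : CfsgLib.ZJ.zj 0 (T' : Subgroup (G ⧸ pCore p G)) = ⊥ := eq_bot_iff.2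
      ((CfsgLib.Core.le_pCore (T'.isPGroup'.to_le (CfsgLib.ZJ.zj_le _))).trans
        (CfsgLib.Core.pCore_quotient_pCore p G).le)
    have h2 : (T' : Subgroup (G ⧸ pCore p G)) = ⊥ := by
      by_contra h2
      exact CfsgLib.ZJ.zj_ne_bot (Or.inl rfl) T'.isPGroup' h2 h1
    refine CfsgLib.Transfer.hasNormalPComplement_iff_coprime.2 (Nat.Coprime.coprime_dvd_left
      ((card_subgroup_dvd_card _).trans (card_subgroup_dvd_card _)) ?_)
    have := T'.not_dvd_index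
    rw [h2, index_bot] at this
    exact ((Nat.Prime.coprime_iff_not_dvd Fact.out).2 this).symm
  · rw [h]
    exact CfsgLib.Transfer.hasNormalPComplement_of_isPGroup T'.isPGroup'

variable {Ω : Type*} [Group Ω] {S : Subgroup Ω} [Finite S] {F : FusionSystem S}

/-- In a model of a sparse system the Sylow subgroup is maximal. -/
theorem isModel_isCoatom_of_sparse (hS : IsPGroup p S) {G : Type*} [Group G] {ι : S →* G} (hG : F.IsModel p G ι)
    (hn : ¬ IsNil p F) (h : ∀ E : FusionSystem S, E.IsSaturated p → E.IsSubsystemOf F → ¬ F.IsSubsystemOf E →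
      IsNil p E) : IsCoatom ι.range := by
  have := hG.1
  have hι := hG.2.1
  have hQ : pre S (extFun ι) (pCore p G) ≤ S := pre_le _ _ _
  have key : ∀ g g' : G, (∀ x ∈ pre S (extFun ι) (pCore p G),
      g * extFun ι x * g⁻¹ = g' * extFun ι x * g'⁻¹) → g'⁻¹ * g ∈ ι.range := fun g g' e => by
    refine isModel_pCore_le_range hG (hG.2.2.2 fun y hy => ?_)
    rw [← isModel_img_pre_pCore hG] at hy
    obtain ⟨x, hx, rfl⟩ := (((isHomOn_extFun ι).mono hQ).mem_img).1 hy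
    calc _ = g'⁻¹ * (g' * extFun ι x * g'⁻¹) * g := by group
      _ = _ := by rw [← e x hx]; group
  have hex : ∀ g : G, ∀ x ∈ pre S (extFun ι) (pCore p G), g * extFun ι x * g⁻¹ ∈ ι.range := fun g x hx =>
    isModel_pCore_le_range hG (Normal.conj_mem inferInstance _ (((isHomOn_extFun ι).mem_pre).1 hx).2 g)
  refine ⟨fun e => hn (realized_isNil_of_npc hS hι (CfsgLib.Transfer.hasNormalPComplement_of_isPGroup
    ((e ▸ (isModel_sylIn hG).isPGroup : IsPGroup p (⊤ : Subgroup G)).of_equiv topEquiv))), fun H hH => ?_⟩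
  have hle : img S (extFun ι) ≤ H := (img_extFun_top ι).le.trans hH.le
  have hE := fun P f => mor_realSub hι.1 le_rfl hle (P := P) (f := f)
  have hEs : (realSub hι.1 H le_rfl hle).IsSaturated p := rMor_saturated hι.1 le_rfl
    ((img_extFun_top ι).symm ▸ (isModel_sylIn hG).of_le hH.le le_top) hE
  by_cases hFE : F.IsSubsystemOf (realSub hι.1 H le_rfl hle)
  · refine eq_top_iff.2 fun g _ => ?_
    obtain ⟨f, hf, e⟩ := realized_exists_mor hι hQ (hex g)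
    obtain ⟨-, -, g', hg', e'⟩ := (hE _ _).1 (hf.sub hFE)
    simpa using H.mul_mem hg' (hH.le (key g g' fun x hx => (e x hx).symm.trans (e' x hx)))
  · have hN := (h _ hEs (isSubsystemOf_iff.2 fun P f hf => ((hE P f).1 hf).mor hι le_rfl) hFE).eq_inner hS hEs
    refine absurd (fun g hg => ?_) hH.not_ge
    obtain ⟨f, hf, e⟩ := exists_rMor hι le_rfl hQ hg (fun x hx => (img_extFun_top ι).ge (hex g x hx))
    have := (hE _ _).2 hf
    rw [hN] at this
    obtain ⟨-, s, hs, e'⟩ := mor_inner_iff.1 this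
    have h1 := key g (extFun ι s) fun x hx => by
      rw [← e x hx, e' x hx, (isHomOn_extFun ι).map_conj hs (hQ hx)]
    simpa using ι.range.mul_mem ((img_extFun_top ι).le (mem_img_of_mem _ hs)) h1

/-- The invariance and replacement axioms for a family of abelian subgroups of `S`. -/
structure AxFam (F : FusionSystem S) (𝒜 : Set (Subgroup Ω)) : Prop where
  le : ∀ A ∈ 𝒜, A ≤ S
  comm : ∀ A ∈ 𝒜, IsMulCommutative A
  ne : 𝒜.Nonempty
  inv : ∀ Q ≤ S, (∃ A ∈ 𝒜, A ≤ Q) → ∀ α ∈ F.autGroup Q, ∀ x ∈ Q, (∀ A ∈ 𝒜, A ≤ Q → x ∈ A) →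
    ∀ A ∈ 𝒜, A ≤ Q → extAut α x ∈ A
  rep : ∀ B ≤ S, ⁅⁅B, B⁆, B⁆ = ⊥ → (∃ A ∈ 𝒜, ⁅B, B⁆ ≤ A ∧ ¬ B ≤ A) →
    ∃ A ∈ 𝒜, ¬ B ≤ A ∧ B ≤ normalizer (A : Set Ω)

variable {𝒜 : Set (Subgroup Ω)}

omit [Finite S] in
theorem AxFam.sInf_le (h : AxFam F 𝒜) : sInf 𝒜 ≤ S :=
  let ⟨A, hA⟩ := h.ne
  (_root_.sInf_le hA).trans (h.le A hA)

theorem AxFam.le_normalizer (h : AxFam F 𝒜) : S ≤ normalizer ((sInf 𝒜 : Subgroup Ω) : Set Ω) := fun s hs => by
  have := finite_of_le h.sInf_le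
  obtain ⟨A₀, hA₀⟩ := h.ne
  refine mem_normalizer_fintype fun x hx => mem_sInf.2 fun A hA => ?_
  have := h.inv S le_rfl ⟨A₀, hA₀, h.le _ hA₀⟩ _ (Inn_le_autGroup F le_rfl ⟨⟨s, hs⟩, rfl⟩) x (h.sInf_le hx)
    (fun A hA _ => mem_sInf.1 hx A hA) A hA (h.le A hA)
  rwa [extAut_conj _ (h.sInf_le hx)] at this

theorem AxFam.isNormal_of_model (h : AxFam F 𝒜) (hS : IsPGroup p S) {G : Type*} [Group G] {ι : S →* G}
    (hG : F.IsModel p G ι) (hst : CfsgLib.ZJ.QuadStable p G) : F.IsNormal (sInf 𝒜) := by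
  have := hG.1
  have hι := hG.2.1
  obtain ⟨T, hT⟩ := hG.2.2.1
  have he := isHomOn_extFun ι
  have hi := realized_injOn hι
  obtain ⟨A₀, hA₀⟩ := h.ne
  have hN := CfsgLib.ZJ.sInf_normal hst hG.2.2.2 T ((fun A => img A (extFun ι)) '' 𝒜) (by
    rintro _ ⟨A, -, rfl⟩
    exact (img_extFun_le_range ι A).trans hT.ge) (by
    rintro _ ⟨A, hA, rfl⟩
    refine isMulCommutative_iff_of_setLike.2 fun x hx y hy => ?_
    obtain ⟨a, ha, rfl⟩ := ((he.mono (h.le A hA)).mem_img).1 hx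
    obtain ⟨b, hb, rfl⟩ := ((he.mono (h.le A hA)).mem_img).1 hy
    rw [← he.map_mul (h.le A hA ha) (h.le A hA hb), isMulCommutative_iff_of_setLike.1 (h.comm A hA) a ha b hb,
      he.map_mul (h.le A hA hb) (h.le A hA ha)]) (by
    rintro L _ ⟨_, ⟨A₁, hA₁, rfl⟩, hL⟩ g hg
    have hQ : pre S (extFun ι) L ≤ S := pre_le _ _ _
    have := finite_of_le hQ
    have hle : ∀ A ∈ 𝒜, img A (extFun ι) ≤ L ↔ A ≤ pre S (extFun ι) L := fun A hA =>
      ⟨fun h1 x hx => he.mem_pre.2 ⟨h.le A hA hx, h1 (mem_img_of_mem _ hx)⟩,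
        fun h1 => (img_mono _ h1).trans (img_pre_extFun_le ι L)⟩
    rw [hT, ← img_pre_extFun] at hg
    have hg' := fun x (hx : x ∈ pre S (extFun ι) L) => (mem_normalizer_iff.1 hg _).1 (mem_img_of_mem _ hx)
    obtain ⟨f, hf, e⟩ := realized_exists_mor hι hQ fun x hx => img_extFun_le_range _ _ (hg' x hx)
    obtain ⟨α, hα, eα⟩ := hf.exists_aut_of_mem fun x hx =>
      (he.mem_img_iff_of_injOn hi hQ (hf.mem hx)).1 (e x hx ▸ hg' x hx)
    refine mem_normalizer_fintype fun y hy => mem_sInf.2 ?_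
    rintro _ ⟨⟨A, hA, rfl⟩, hAL⟩
    obtain ⟨x, hx, rfl⟩ := ((he.mono (h.le A₁ hA₁)).mem_img).1 (mem_sInf.1 hy _ ⟨⟨A₁, hA₁, rfl⟩, hL⟩)
    have hxQ := (hle _ hA₁).1 hL hx
    rw [← e x hxQ, ← eα x hxQ]
    exact mem_img_of_mem _ (h.inv _ hQ ⟨A₁, hA₁, (hle _ hA₁).1 hL⟩ α hα x hxQ (fun A' hA' h1 =>
      (he.mem_img_iff_of_injOn hi (h.le _ hA') (hQ hxQ)).1
        (mem_sInf.1 hy _ ⟨⟨A', hA', rfl⟩, (hle _ hA').2 h1⟩)) A hA ((hle _ hA).1 hAL))) (by
    rintro B _ hB hc ⟨_, ⟨A₁, hA₁, rfl⟩, h1, h2⟩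
    have hQ : pre S (extFun ι) B ≤ S := pre_le _ _ _
    have e : img (pre S (extFun ι) B) (extFun ι) = B := by
      rw [img_pre_extFun, inf_eq_right, ← hT]
      exact (CfsgLib.Core.le_pCore hB).trans (CfsgLib.Core.pCore_le_sylow T)
    have hQ2 := (commutator_le_self _).trans hQ
    rw [← e, ← he.img_commutator hQ hQ] at hc h1
    rw [← he.img_commutator hQ2 hQ, (realized_isFactor hι).iso_img_eq_bot
      ((commutator_le_sup _ _).trans (sup_le hQ2 hQ))] at hc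
    rw [← e] at h2
    obtain ⟨A, hA, h3, h4⟩ := h.rep _ hQ hc ⟨A₁, hA₁, (he.img_le_img_iff hi hQ2 (h.le _ hA₁)).1 h1,
      fun h' => h2 (img_mono _ h')⟩
    refine ⟨_, ⟨A, hA, rfl⟩, fun h' => h3 ((he.img_le_img_iff hi hQ (h.le _ hA)).1 (e.le.trans h')), ?_⟩
    rw [← e]
    intro y hy
    obtain ⟨x, hx, rfl⟩ := ((he.mono hQ).mem_img).1 hy
    exact he.mem_normalizer_img (h.le _ hA) (hQ hx) (h4 hx))
  refine realized_isNormal_of_normal hι h.sInf_le ?_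
  convert hN using 1
  refine le_antisymm (le_sInf ?_) fun y hy => ?_
  · rintro _ ⟨A, hA, rfl⟩
    exact img_mono _ (_root_.sInf_le hA)
  · obtain ⟨x, hx, rfl⟩ := ((he.mono (h.le A₀ hA₀)).mem_img).1 (mem_sInf.1 hy _ ⟨A₀, hA₀, rfl⟩)
    exact mem_img_of_mem _ (mem_sInf.2 fun A hA => (he.mem_img_iff_of_injOn hi (h.le _ hA) (h.le _ hA₀ hx)).1
      (mem_sInf.1 hy _ ⟨A, hA, rfl⟩))

theorem AxFam.isNil {Ω : Type u} [Group Ω] {S : Subgroup Ω} [Finite S] {F : FusionSystem S}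
    {𝒜 : Set (Subgroup Ω)} (h : AxFam F 𝒜) (hp2 : p ≠ 2) (hS : IsPGroup p S) (hF : F.IsSaturated p)
    {U : Subgroup Ω} {D : FusionSystem U} (hD : IsNil p D) (hN : NLe F (sInf 𝒜) D) : IsNil p F := by
  refine fusion_induction (p := p) (Φ := fun Ω _ S F => ∀ (𝒜 : Set (Subgroup Ω)) (U : Subgroup Ω)
    (D : FusionSystem U), AxFam F 𝒜 → IsNil p D → NLe F (sInf 𝒜) D → IsNil p F) ?_ F hS hF 𝒜 U D h hD hN
  intro Ω _ S _ F hS hF ih _ 𝒜 U D h hD hN
  by_contra hn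
  have hsp : ∀ (T : Subgroup Ω) (E : FusionSystem T), E.IsSaturated p → E.IsSubsystemOf F →
      ¬ F.IsSubsystemOf E → S ≤ T → IsNil p E := fun T E h1 h2 h3 h4 =>
    ih T E h1 h2 h3 𝒜 U D ⟨fun A hA => (h.le A hA).trans h4, h.comm, h.ne,
      fun Q hQ hA α hα => h.inv Q (hQ.trans (le_of_isSubsystemOf h2)) hA α (autGroup_mono h2 Q hα),
      fun B hB => h.rep B (hB.trans (le_of_isSubsystemOf h2))⟩ hD (hN.sub h2)
  obtain ⟨G, _, ι, hG⟩ := exists_model hS 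
    (NilCrit.constrained_of_sparse (nilCrit_odd hp2) isFClass_true hS hF trivial hn hsp)
  have := hG.1
  obtain ⟨T, hT⟩ := hG.2.2.1
  have hm := isModel_isCoatom_of_sparse hS hG hn fun E h1 h2 h3 => hsp S E h1 h2 h3 le_rfl
  rw [← hT] at hm
  exact hn (hD.sub (hN.of_isNormal (h.isNormal_of_model hS hG (CfsgLib.ZJ.quadStable_of_sylow_two_comm hp2
    (sylow_comm_of_sylow_isCoatom hp2 T hm hp2)))))

end CfsgLib.Fusion
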