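import Mathlib
import Cfsg.Agent.Lib.Fusion.Supersol
import Cfsg.Agent.Lib.Fusion.TwoSimple
import Cfsg.Agent.Lib.Classical.SLBasic
import Cfsg.Agent.Lib.Classical.SL2Torus
import Cfsg.Agent.Lib.SL2.SylowTwo
import Cfsg.Agent.Lib.TwoGrp.QD

/-!
Every dihedral, generalized quaternion and quasi-dihedral `2`-group is a Sylow `2`-subgroup of a
finite group without normal `2`-complement.
-/

set_option autoImplicit false

namespace CfsgLib.Fusion

open Cfsg Cfsg.FusionSystem Subgroup Matrix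

theorem perfect_of_surjective {G H : Type*} [Group G] [Group H] (h : _root_.commutator G = ⊤)
    (f : G →* H) (hf : Function.Surjective f) : _root_.commutator H = ⊤ := by
  rw [_root_.commutator_def, ← MonoidHom.range_eq_top.2 hf, MonoidHom.range_eq_map,
    ← Subgroup.map_commutator, ← _root_.commutator_def, h]

theorem not_npc_of_perfect {G : Type*} [Group G] [Finite G] {p : ℕ} [Fact p.Prime]
    (h : _root_.commutator G = ⊤) (hp : p ∣ Nat.card G) : ¬ HasNormalPComplement p G := fun hn => by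
  obtain ⟨N, _, h1, h2⟩ := Transfer.hasNormalPComplement_iff_exists_normal.1 hn
  have := h2.isNilpotent
  have h3 := perfect_of_surjective h _ (QuotientGroup.mk'_surjective N)
  have h4 : Subsingleton (G ⧸ N) := by
    by_contra H
    have := not_subsingleton_iff_nontrivial.1 H
    exact (Group.IsSolvable.commutator_lt_top_of_nontrivial (G ⧸ N)).ne h3
  rw [QuotientGroup.subsingleton_iff.1 h4, card_top] at h1
  exact (Fact.out : p.Prime).coprime_iff_not_dvd.1 h1.symm hp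

theorem nonempty_mulEquiv_of_isQD {G G' : Type*} [Group G] [Group G'] [Finite G] [Finite G'] {k : ℕ}
    {x y : G} {x' y' : G'} (h : TwoGrp.IsQD ⊤ k x y) (h' : TwoGrp.IsQD ⊤ k x' y') :
    Nonempty (G ≃* G') := by
  let D : Subgroup (G × G') := zpowers (x, x') ⊔ zpowers (y, y')
  have hD : ∀ g, g ∈ D ↔ ∃ i : ℤ, g = (x ^ i, x' ^ i) ∨ g = (x ^ i * y, x' ^ i * y') := fun g =>
    TwoGrp.mem_zpowers_sup_zpowers_iff (TwoGrp.mem_normalizer_zpowers
      ⟨4 * k - 1, Prod.ext h.conj.symm h'.conj.symm⟩) ⟨0, (zpow_zero _).trans (Prod.ext h.yy.symm h'.yy.symm)⟩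
  have h1 : Function.Bijective ((MonoidHom.fst G G').comp D.subtype) := by
    refine ⟨(injective_iff_map_eq_one _).2 fun ⟨g, hg⟩ e => Subtype.ext ?_, fun g => ?_⟩
    · obtain ⟨i, rfl | rfl⟩ := (hD g).1 hg
      · exact Prod.ext e (h'.eq_one_iff.2 (h.eq_one_iff.1 e))
      · exact absurd e (h.xpowy_ne_one i)
    · obtain ⟨i, rfl | rfl⟩ := (h.mem g).1 trivial
      exacts [⟨⟨_, (hD _).2 ⟨i, Or.inl rfl⟩⟩, rfl⟩, ⟨⟨_, (hD _).2 ⟨i, Or.inr rfl⟩⟩, rfl⟩]
  have h2 : Function.Bijective ((MonoidHom.snd G G').comp D.subtype) := by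
    refine ⟨(injective_iff_map_eq_one _).2 fun ⟨g, hg⟩ e => Subtype.ext ?_, fun g => ?_⟩
    · obtain ⟨i, rfl | rfl⟩ := (hD g).1 hg
      · exact Prod.ext (h.eq_one_iff.2 (h'.eq_one_iff.1 e)) e
      · exact absurd e (h'.xpowy_ne_one i)
    · obtain ⟨i, rfl | rfl⟩ := (h'.mem g).1 trivial
      exacts [⟨⟨_, (hD _).2 ⟨i, Or.inl rfl⟩⟩, rfl⟩, ⟨⟨_, (hD _).2 ⟨i, Or.inr rfl⟩⟩, rfl⟩]
  exact ⟨(MulEquiv.ofBijective _ h1).symm.trans (MulEquiv.ofBijective _ h2)⟩

theorem nonempty_mulEquiv_of_isQuasiDihedral {G G' : Type*} [Group G] [Group G'] [Finite G]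
    [Finite G'] (h : IsQuasiDihedral G) (h' : IsQuasiDihedral G') (hc : Nat.card G = Nat.card G') :
    Nonempty (G ≃* G') := by
  obtain ⟨k, x, y, h⟩ := TwoGrp.exists_isQD_top h
  obtain ⟨k', x', y', h'⟩ := TwoGrp.exists_isQD_top h'
  have h1 := h.card_eq
  have h2 := h'.card_eq
  rw [card_top] at h1 h2
  obtain rfl : k = k' := by omega
  exact nonempty_mulEquiv_of_isQD h h'

/-- `T` is a Sylow `p`-subgroup of a finite group without normal `p`-complement. -/
def SylNotNil (p : ℕ) (T : Type*) [Group T] : Prop :=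
  ∃ (G : Type) (_ : Group G) (_ : Finite G) (P : Sylow p G),
    Nonempty (T ≃* (P : Subgroup G)) ∧ ¬ HasNormalPComplement p G

theorem SylNotNil.of_equiv {p : ℕ} {T T' : Type*} [Group T] [Group T'] (h : SylNotNil p T)
    (e : T' ≃* T) : SylNotNil p T' :=
  let ⟨G, i, j, P, ⟨e'⟩, hn⟩ := h
  ⟨G, i, j, P, ⟨e.trans e'⟩, hn⟩

theorem SylNotNil.exists_not_isNil {Ω : Type*} [Group Ω] {S : Subgroup Ω} {p : ℕ} [Fact p.Prime]
    (h : SylNotNil p S) : ∃ F : FusionSystem S, F.IsSaturated p ∧ ¬ IsNil p F := by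
  obtain ⟨G, _, _, P, ⟨e⟩, hn⟩ := h
  obtain ⟨F, hι⟩ := exists_isRealizedBy (S := S) (ι := (P : Subgroup G).subtype.comp e.toMonoidHom)
    ((subtype_injective _).comp e.injective)
  have hT : SylIn p ((P : Subgroup G).subtype.comp e.toMonoidHom).range ⊤ := by
    rw [MonoidHom.range_comp, MonoidHom.range_eq_top.2 e.surjective, ← MonoidHom.range_eq_map,
      range_subtype]
    exact sylIn_top P
  exact ⟨F, realized_saturated hι hT, fun hE => hn (Transfer.hasNormalPComplement_top_iff.1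
    (realized_npc_of_isNil hι hT le_top (fun _ _ hf _ _ _ => hf) hE))⟩

theorem exists_prime_two_part (k : ℕ) : ∃ q u v : ℕ, q.Prime ∧ 4 ≤ q ∧ q + 1 = 2 ^ (k + 2) * (2 * u + 1) ∧
    q = 2 * (2 * v + 1) + 1 := by
  have h4 : 2 ^ (k + 2) = 4 * 2 ^ k := by ring
  have h8 : 2 ^ (k + 3) = 8 * 2 ^ k := by ring
  have h0 : 0 < 2 ^ k := by positivity
  obtain ⟨q, hq, hp, hm⟩ := Nat.forall_exists_prime_gt_and_modEq 3 (q := 2 ^ (k + 3))
    (a := 2 ^ (k + 2) - 1) (by positivity) (Nat.Coprime.pow_right _ (Nat.coprime_two_right.2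
      ⟨2 * 2 ^ k - 1, by omega⟩))
  have h1 := Nat.div_add_mod q (2 ^ (k + 3))
  rw [hm, Nat.mod_eq_of_lt (by omega)] at h1
  generalize q / 2 ^ (k + 3) = u at h1
  have h2 : q + 1 = 2 ^ (k + 2) * (2 * u + 1) := by
    rw [← h1, add_assoc, Nat.sub_add_cancel (by omega)]; ring
  refine ⟨q, u, 2 ^ k * (2 * u + 1) - 1, hp, hq, h2, ?_⟩
  have : 0 < 2 ^ k * (2 * u + 1) := by positivity
  rw [h4, mul_assoc] at h2
  omega

theorem sylNotNil_sl2 (k : ℕ) : SylNotNil 2 (QuaternionGroup (2 ^ (k + 1))) ∧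
    SylNotNil 2 (DihedralGroup (2 ^ (k + 1))) ∧
    ∀ (T : Type*) [Group T] [Finite T], IsQuasiDihedral T → Nat.card T = 2 ^ (k + 4) →
      SylNotNil 2 T := by
  obtain ⟨q, u, v, hq, h4, e, hv⟩ := exists_prime_two_part k
  have := Fact.mk hq
  have hc : Fintype.card (ZMod q) = q := ZMod.card q
  have ho : Odd (Fintype.card (ZMod q)) := ⟨2 * v + 1, hc.trans hv⟩
  have hv' : q - 1 = 2 * (2 * v + 1) := by omega
  have hperf := Classical.sl_fin_commutator_eq_top (F := ZMod q) 2 le_rfl fun _ => hc.symm ▸ h4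
  have hcard : Nat.card (SpecialLinearGroup (Fin 2) (ZMod q)) =
      2 ^ (k + 3) * (q * ((2 * v + 1) * (2 * u + 1))) := by
    rw [Classical.sl2_card', hc, e, hv']; ring
  have hnpc := not_npc_of_perfect (p := 2) hperf (hcard ▸ (dvd_pow_self 2 (by omega)).mul_right _)
  obtain ⟨Q⟩ : Nonempty (Sylow 2 (SpecialLinearGroup (Fin 2) (ZMod q))) := inferInstance
  have hQ := card_sylow_of_mul hcard (by
    simp only [Nat.prime_two.dvd_mul, not_or]
    exact ⟨by omega, by omega, by omega⟩) Q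
  obtain ⟨m, -, ⟨e1⟩⟩ := Classical.sl2_sylow_two_quaternion ho Q
  obtain rfl : m = k + 1 := by
    rw [Nat.card_congr e1.toEquiv, Nat.card_eq_fintype_card, QuaternionGroup.card,
      show 4 * 2 ^ m = 2 ^ (m + 2) by ring] at hQ
    have := Nat.pow_right_injective le_rfl hQ
    omega
  refine ⟨⟨_, inferInstance, inferInstance, Q, ⟨e1.symm⟩, hnpc⟩, ?_, fun T _ _ hT hcT => ?_⟩
  · let π := QuotientGroup.mk' (Subgroup.center (SpecialLinearGroup (Fin 2) (ZMod q)))
    have hπ : Function.Surjective π := QuotientGroup.mk'_surjective _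
    obtain ⟨a, b, h1, h2, h3, h5, h6⟩ :=
      TwoGrp.exists_gens_of_quaternion (topEquiv.trans e1 : (⊤ : Subgroup Q) ≃* _)
    have hi : (zpowers a).index = 2 := by
      rw [← relIndex_top_right]
      exact TwoGrp.relIndex_eq_two_of_mem_iff h5 fun g => (h6 g).trans
        ⟨fun ⟨i, hi⟩ => hi.imp (fun h => ⟨i, h.symm⟩) fun h => ⟨_, ⟨i, rfl⟩, h⟩,
          fun h => h.elim (fun ⟨i, hi⟩ => ⟨i, Or.inl hi.symm⟩)
            fun ⟨_, ⟨i, hi⟩, h⟩ => ⟨i, Or.inr (h.trans (congrArg (· * b) hi.symm))⟩⟩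
    have hnc : ¬ IsCyclic Q := fun H => by
      rw [mul_comm' b a, mul_inv_cancel_right, eq_inv_iff_mul_eq_one, ← pow_two,
        ← orderOf_dvd_iff_pow_eq_one, h1] at h3
      have := Nat.le_of_dvd two_pos h3
      have : 0 < 2 ^ k := by positivity
      omega
    obtain ⟨e2⟩ := PGroup.nonempty_quotient_center_dihedral (n := k + 3) (by omega) hQ
      (PGroup.index_commutator_eq_four_of_inv Q.isPGroup' hnc hi h3)
    have hk : (π.comp (Q : Subgroup _).subtype).ker = Subgroup.center Q := by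
      ext x
      rw [MonoidHom.mem_ker, MonoidHom.comp_apply, QuotientGroup.mk'_apply,
        QuotientGroup.eq_one_iff, ← SL2.centralizer_sylow_two ho Q, Subgroup.mem_center_iff]
      exact ⟨fun h g => Subtype.ext (h g g.2), fun h g hg => congrArg Subtype.val (h ⟨g, hg⟩)⟩
    have e3 : DihedralGroup (2 ^ (k + 1)) ≃* (Q.mapSurjective hπ : Subgroup _) := e2.symm.trans
      ((QuotientGroup.quotientMulEquivOfEq hk.symm).trans ((QuotientGroup.quotientKerEquivRange _).trans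
      (MulEquiv.subgroupCongr (by rw [MonoidHom.range_comp, range_subtype]; rfl))))
    refine ⟨_, inferInstance, inferInstance, _, ⟨e3⟩, not_npc_of_perfect
      (perfect_of_surjective hperf π hπ) (Dvd.dvd.trans ?_ (card_subgroup_dvd_card (Q.mapSurjective hπ : Subgroup _)))⟩
    rw [← Nat.card_congr e3.toEquiv, DihedralGroup.nat_card]
    exact dvd_mul_right _ _
  · obtain ⟨P⟩ : Nonempty (Sylow 2 (GL (Fin 2) (ZMod q))) := inferInstance
    refine ⟨_, inferInstance, inferInstance, P, nonempty_mulEquiv_of_isQuasiDihedral hT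
      (gl2_sylow_two_qd (by omega) P) (hcT.trans (card_sylow_of_mul
        (m := q * ((2 * v + 1) * ((2 * v + 1) * (2 * u + 1)))) ?_ ?_ P).symm), fun H => hnpc
      (Transfer.hasNormalPComplement_of_injective H _ SpecialLinearGroup.toGL_injective)⟩
    · rw [Classical.gl2_card, hc, e, hv']; ring
    · simp only [Nat.prime_two.dvd_mul, not_or]
      exact ⟨by omega, by omega, by omega, by omega⟩

theorem exists_eq_two_pow_succ {c n : ℕ} (hn : 2 ≤ n) (h : ∃ m, c * n = 2 ^ m) :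
    ∃ k, n = 2 ^ (k + 1) := by
  obtain ⟨m, hm⟩ := h
  obtain ⟨k, -, rfl⟩ := (Nat.dvd_prime_pow Nat.prime_two).1 (Dvd.intro_left c hm)
  rcases k with _ | k
  · omega
  · exact ⟨k, rfl⟩

theorem sylNotNil_of_maxClass {T : Type*} [Group T] [Finite T] (hT : IsPGroup 2 T)
    (h : (∃ n : ℕ, 2 ≤ n ∧ Nonempty (T ≃* DihedralGroup n)) ∨ IsQuasiDihedral T ∨
      ∃ n : ℕ, 2 ≤ n ∧ Nonempty (T ≃* QuaternionGroup n)) : SylNotNil 2 T := by
  obtain ⟨m, hm⟩ := IsPGroup.iff_card.1 hT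
  rcases h with ⟨n, hn, ⟨e⟩⟩ | h | ⟨n, hn, ⟨e⟩⟩
  · obtain ⟨k, rfl⟩ := exists_eq_two_pow_succ (c := 2) hn
      ⟨m, by rw [← hm, Nat.card_congr e.toEquiv, DihedralGroup.nat_card]⟩
    exact (sylNotNil_sl2.{0} k).2.1.of_equiv e
  · obtain ⟨n, hn, hc, -⟩ := id h
    exact (sylNotNil_sl2 (n - 3)).2.2 T h (by rw [hc]; congr 1; omega)
  · have : NeZero n := ⟨by omega⟩
    obtain ⟨k, rfl⟩ := exists_eq_two_pow_succ (c := 4) hn
      ⟨m, by rw [← hm, Nat.card_congr e.toEquiv, Nat.card_eq_fintype_card, QuaternionGroup.card]⟩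
    exact (sylNotNil_sl2.{0} k).1.of_equiv e

end CfsgLib.Fusion
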