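import Mathlib
import Cfsg.Agent.Lib.Fusion.GroupSimple
import Cfsg.Agent.Lib.InvChar.SylowBasic

/-!
Simplicity of the `2`-fusion system of a group with an involution centralizer `(L ∘ L) : 2`, where the two
factors have quaternion Sylow subgroups and are interchanged.
-/

set_option autoImplicit false

namespace CfsgLib.Fusion

open Cfsg Cfsg.FusionSystem Subgroup

variable {G L : Type*} [Group G] [Group L]

/-- The configuration `C(z) = (L ∘ L)⟨t⟩` of `PSp₄(q)`. -/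
structure WrInv (φ : L × L →* G) (t : G) (e : L) (Q : Subgroup L) (γ : {i : L // i * i = e} → G) : Prop where
  ker : ∀ a b, φ (a, b) = 1 ↔ (a = 1 ∧ b = 1) ∨ (a = e ∧ b = e)
  tt : t * t = 1
  sw : ∀ a b, t * φ (a, b) = φ (b, a) * t
  tn : ∀ d, φ d ≠ t
  e1 : e ≠ 1
  inv : ∀ a, a * a = 1 ↔ a = 1 ∨ a = e
  cent : ∀ g, g * φ (1, e) = φ (1, e) * g → ∃ a b, g = φ (a, b) ∨ g = φ (a, b) * t
  syl : SylIn 2 Q ⊤
  zq : ∀ a ∈ Q, (∀ c ∈ Q, c * a = a * c) → a = 1 ∨ a = e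
  conj : ∀ c d, c * c = e → d * d = e → IsConj c d
  gen : Q ≤ closure {c | c ∈ Q ∧ c * c = e}
  quat : ∃ i ∈ Q, ∃ j ∈ Q, i * i = e ∧ j * j = e ∧ i * j * (i * j) = e
  nrm : Subgroup.normalizer (Q : Set L) = Q ∨ Nat.card Q = 8 ∧ Nat.card (Subgroup.normalizer (Q : Set L)) = 24
  gt : ∀ i, γ i * t = φ (1, e) * γ i
  gz : ∀ i, γ i * φ (1, e) = t * γ i
  gg : ∀ i, γ i * γ i = φ (i.1, i.1)
  gc : ∀ i a, a * i.1 = i.1 * a → γ i * φ (a, a) = φ (a, a) * γ i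
  gi : ∀ i a, a * i.1 = e * i.1 * a → γ i * φ (a, a) = φ (i.1 * a, i.1 * a) * γ i
  gm : ∀ i j, ∃ w, γ i * γ j = φ (w, w)

namespace WrInv

variable {φ : L × L →* G} {t : G} {e : L} {Q : Subgroup L} {γ : {i : L // i * i = e} → G} (h : WrInv φ t e Q γ)
include h

theorem ee : e * e = 1 := (h.inv e).2 (.inr rfl)

theorem ec (a : L) : a * e * a⁻¹ = e := ((h.inv _).1 (by
  rw [show a * e * a⁻¹ * (a * e * a⁻¹) = a * (e * e) * a⁻¹ by group, h.ee]; group)).resolve_left fun H =>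
    h.e1 (by simpa using H)

theorem eQ : e ∈ Q := by
  obtain ⟨i, hi, -, -, h1, -⟩ := h.quat
  exact h1 ▸ mul_mem hi hi

theorem t_inv : t⁻¹ = t := inv_eq_of_mul_eq_one_left h.tt

theorem sw' (d : L × L) : t * φ d = φ d.swap * t := h.sw _ _

theorem eq_iff {a b c d : L} : φ (a, b) = φ (c, d) ↔ (a = c ∧ b = d) ∨ (a = e * c ∧ b = e * d) := by
  rw [← mul_inv_eq_one, ← map_inv, ← map_mul, Prod.inv_mk, Prod.mk_mul_mk, h.ker]
  simp only [mul_inv_eq_iff_eq_mul, one_mul]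

/-- `φ(D)⟨t⟩` -/
def sub (D : Subgroup (L × L)) (hD : ∀ d ∈ D, d.swap ∈ D) : Subgroup G where
  carrier := {g | ∃ d ∈ D, g = φ d ∨ g = φ d * t}
  one_mem' := ⟨1, one_mem _, .inl (map_one φ).symm⟩
  mul_mem' := by
    rintro _ _ ⟨d, hd, rfl | rfl⟩ ⟨c, hc, rfl | rfl⟩
    · exact ⟨_, mul_mem hd hc, .inl (map_mul φ _ _).symm⟩
    · exact ⟨_, mul_mem hd hc, .inr (by rw [map_mul, mul_assoc])⟩
    · exact ⟨_, mul_mem hd (hD _ hc), .inr (by rw [map_mul, mul_assoc, h.sw', mul_assoc])⟩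
    · exact ⟨_, mul_mem hd (hD _ hc), .inl (by
        rw [map_mul, mul_assoc, ← mul_assoc t, h.sw', mul_assoc _ t, h.tt, mul_one])⟩
  inv_mem' := by
    rintro _ ⟨d, hd, rfl | rfl⟩
    · exact ⟨_, Subgroup.inv_mem _ hd, .inl (map_inv φ _).symm⟩
    · exact ⟨_, hD _ (Subgroup.inv_mem _ hd), .inr (by rw [mul_inv_rev, h.t_inv, ← map_inv, h.sw'])⟩

section
variable {D : Subgroup (L × L)} {hD : ∀ d ∈ D, d.swap ∈ D}

theorem t_mem : t ∈ h.sub D hD := ⟨1, one_mem _, .inr (by simp)⟩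

theorem mem_sub {d : L × L} (hd : d ∈ D) : φ d ∈ h.sub D hD := ⟨d, hd, .inl rfl⟩

theorem of_mem_sub (he : (e, e) ∈ D) {d : L × L} (hd : φ d ∈ h.sub D hD) : d ∈ D := by
  obtain ⟨c, hc, h1 | h1⟩ := hd
  · rcases h.eq_iff.1 h1 with h2 | h2
    · rwa [show d = c from Prod.ext h2.1 h2.2]
    · rw [show d = (e, e) * c from Prod.ext h2.1 h2.2]
      exact mul_mem he hc
  · exact absurd (by rw [map_mul, map_inv, h1]; group) (h.tn (c⁻¹ * d))

theorem sub_le {K : Subgroup G} (ht : t ∈ K) (hK : ∀ d ∈ D, φ d ∈ K) : h.sub D hD ≤ K := by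
  rintro _ ⟨d, hd, rfl | rfl⟩
  exacts [hK d hd, mul_mem (hK d hd) ht]

end

/-- the Sylow subgroup -/
def U : Subgroup G := h.sub (Q.prod Q) fun _ hd => ⟨hd.2, hd.1⟩

theorem mem_U {a b : L} : φ (a, b) ∈ h.U ↔ a ∈ Q ∧ b ∈ Q :=
  ⟨h.of_mem_sub (D := Q.prod Q) ⟨h.eQ, h.eQ⟩, fun H => h.mem_sub H⟩

theorem t_U : t ∈ h.U := h.t_mem

theorem isPGroup_U : IsPGroup 2 h.U := by
  have key : ∀ d ∈ Q.prod Q, ∃ k, φ d ^ 2 ^ k = 1 := fun d hd => by
    obtain ⟨k, hk⟩ := h.syl.isPGroup ⟨_, hd.1⟩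
    obtain ⟨l, hl⟩ := h.syl.isPGroup ⟨_, hd.2⟩
    refine ⟨k + l, ?_⟩
    rw [← map_pow, show d ^ 2 ^ (k + l) = 1 from Prod.ext ?_ ?_, map_one]
    · rw [Prod.pow_fst, pow_add, pow_mul, show d.1 ^ 2 ^ k = 1 from congrArg Subtype.val hk, one_pow, Prod.fst_one]
    · rw [Prod.pow_snd, pow_add, mul_comm, pow_mul, show d.2 ^ 2 ^ l = 1 from congrArg Subtype.val hl, one_pow,
        Prod.snd_one]
  rintro ⟨_, d, hd, rfl | rfl⟩
  · exact (key d hd).imp fun k hk => Subtype.ext hk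
  · obtain ⟨k, hk⟩ := key (d * d.swap) (mul_mem hd ⟨hd.2, hd.1⟩)
    refine ⟨k + 1, Subtype.ext ?_⟩
    change (φ d * t) ^ 2 ^ (k + 1) = 1
    rw [pow_succ', pow_mul, sq, mul_assoc, ← mul_assoc t, h.sw', mul_assoc _ t, h.tt, mul_one, ← map_mul, hk]

theorem z_ne : φ (1, e) ≠ 1 := fun H => by simpa [h.e1, h.e1.symm] using (h.ker _ _).1 H

theorem eq_z {u : G} (hu : u ∈ h.U) (hc : ∀ y ∈ h.U, y * u = u * y) (h1 : u ≠ 1) : u = φ (1, e) := by
  obtain ⟨⟨a, b⟩, hd, rfl | rfl⟩ := hu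
  · have ha := h.zq a hd.1 fun c hc' => by
      have := hc _ (h.mem_U.2 ⟨hc', one_mem _⟩)
      rw [← map_mul, ← map_mul] at this
      simpa [h.e1] using h.eq_iff.1 this
    have hb := h.zq b hd.2 fun c hc' => by
      have := hc _ (h.mem_U.2 ⟨one_mem _, hc'⟩)
      rw [← map_mul, ← map_mul] at this
      simpa [h.e1] using h.eq_iff.1 this
    rw [Ne, h.ker] at h1
    rw [h.eq_iff]
    rcases ha with rfl | rfl <;> rcases hb with rfl | rfl <;> simp_all [h.ee]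
  · obtain ⟨i, hi, -, -, hii, -⟩ := h.quat
    have := hc _ (h.mem_U.2 ⟨hi, one_mem _⟩)
    rw [mul_assoc, h.sw, ← mul_assoc, ← mul_assoc, mul_left_inj, ← map_mul, ← map_mul, Prod.mk_mul_mk,
      Prod.mk_mul_mk, h.eq_iff] at this
    rcases this with ⟨h2, -⟩ | ⟨h2, -⟩
    · rw [show i = 1 by simpa using h2, mul_one] at hii
      exact absurd hii.symm h.e1
    · rw [show i = e by simpa using h2, h.ee] at hii
      exact absurd hii.symm h.e1

theorem comm_t (a b : L) : φ (a, b) * t * (φ (a, b))⁻¹ = φ (a * b⁻¹, b * a⁻¹) * t := by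
  rw [← map_inv, mul_assoc, h.sw', ← mul_assoc, ← map_mul]; rfl

theorem of_mem_normalizer [Finite L] {g : G} (hg : g ∈ Subgroup.normalizer (h.U : Set G)) :
    ∃ a ∈ Subgroup.normalizer (Q : Set L), ∃ c ∈ Q, g = φ (a, c * a) ∨ g = φ (a, c * a) * t := by
  have hz : φ (1, e) ∈ h.U := h.mem_U.2 ⟨one_mem _, h.eQ⟩
  have hz' : ∀ y ∈ h.U, y * φ (1, e) = φ (1, e) * y := fun y hy => by
    refine h.sub_le (K := Subgroup.centralizer {φ (1, e)}) ?_ (fun d _ => ?_) hy _ rfl |>.symm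
    · rw [mem_centralizer_singleton_iff, h.sw, mul_left_inj, h.eq_iff]
      simp [h.ee]
    · rw [mem_centralizer_singleton_iff, ← map_mul, ← map_mul]
      exact congrArg φ (Prod.ext (by simp) (mul_inv_eq_iff_eq_mul.1 (h.ec _)))
  obtain ⟨a, b, hab⟩ := h.cent g (mul_inv_eq_iff_eq_mul.1 (h.eq_z ((hg _).1 hz) (fun y hy => by
    have := hz' _ ((Subgroup.inv_mem _ hg y).1 hy)
    calc y * (g * φ (1, e) * g⁻¹) = g * (g⁻¹ * y * g⁻¹⁻¹ * φ (1, e)) * g⁻¹ := by group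
      _ = _ := by rw [this]; group) (by simpa using h.z_ne)))
  have h1 : φ (a, b) ∈ Subgroup.normalizer (h.U : Set G) := by
    rcases hab with rfl | rfl
    exacts [hg, (Subgroup.mul_mem_cancel_right _ (le_normalizer h.t_mem)).1 hg]
  have h2 := (h1 t).1 h.t_mem
  rw [h.comm_t, SetLike.mem_coe, Subgroup.mul_mem_cancel_right _ h.t_U, h.mem_U] at h2
  refine ⟨a, mem_normalizer_fintype fun c hc => ?_, _, h2.2, by simpa using hab⟩
  have := (h1 _).1 (h.mem_U.2 ⟨hc, one_mem _⟩)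
  rw [← map_inv, ← map_mul, ← map_mul] at this
  exact (h.mem_U.1 this).1

theorem sylIn_U [Finite G] [Finite L] : SylIn 2 h.U ⊤ := sylIn_of_max le_top h.isPGroup_U fun V hV hUV _ => by
  by_contra hn
  obtain ⟨g, hg, hgU⟩ := SetLike.exists_of_lt (lt_normalizerIn hV (lt_of_le_not_ge hUV hn))
  obtain ⟨a, ha, c, hc, H⟩ := h.of_mem_normalizer hg.2
  have h1 : φ (a, c * a) ∈ V := by
    rcases H with rfl | rfl
    exacts [hg.1, (Subgroup.mul_mem_cancel_right _ (hUV h.t_mem)).1 hg.1]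
  obtain ⟨k, hk⟩ := hV ⟨_, h1⟩
  have h2 : a ^ 2 ^ (k + 1) = 1 := by
    have := (h.ker (a ^ 2 ^ k) _).1 ((map_pow φ (a, c * a) _).trans (congrArg Subtype.val hk))
    rw [pow_succ, pow_mul, sq, h.inv]
    exact this.imp And.left And.left
  obtain ⟨y, hy, h3⟩ := (h.syl.of_le le_normalizer le_top).exists_conj (U := zpowers a)
    (IsPGroup.of_card_dvd_pow (n := k + 1) (by rw [Nat.card_zpowers]; exact orderOf_dvd_of_pow_eq_one h2))
    (zpowers_le.2 ha)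
  have h4 : φ (a, c * a) ∈ h.U := by
    have := (hy a).2 (h3 a (mem_zpowers a))
    exact h.mem_U.2 ⟨this, mul_mem hc this⟩
  rcases H with rfl | rfl
  exacts [hgU h4, hgU (mul_mem h4 h.t_mem)]

theorem closed [Finite G] (T : Subgroup G) (hT : T ≤ h.U)
    (hc : ∀ x ∈ T, ∀ g : G, g * x * g⁻¹ ∈ h.U → g * x * g⁻¹ ∈ T) : T = ⊥ ∨ T = h.U := by
  refine or_iff_not_imp_left.2 fun h0 => le_antisymm hT ?_
  obtain ⟨u, hu, hu1, hu2⟩ := InvChar.exists_mem_center_of_normalized h.isPGroup_U hT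
    (fun g hg w hw => hc w hw g (mul_mem (mul_mem hg (hT hw)) (Subgroup.inv_mem _ hg))) h0
  obtain rfl := h.eq_z (hT hu) hu2 hu1
  obtain ⟨i, hi, j, hj, hii, hjj, hij⟩ := h.quat
  have ht : t ∈ T := by
    have e1 := mul_inv_eq_iff_eq_mul.2 (h.gz ⟨i, hii⟩)
    exact e1 ▸ hc _ hu _ (e1 ▸ h.t_mem)
  have cj : ∀ {a c d : L}, φ (a, c) ∈ T → a ∈ Q → d ∈ Q → c * c = e → d * d = e → φ (a, d) ∈ T :=
    fun {a c d} H ha hd h1 h2 => by
      obtain ⟨g, rfl⟩ := _root_.isConj_iff.1 (h.conj c d h1 h2)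
      have e1 : φ (1, g) * φ (a, c) * (φ (1, g))⁻¹ = φ (a, g * c * g⁻¹) := by
        rw [← map_inv, ← map_mul, ← map_mul]; simp
      exact e1 ▸ hc _ H _ (e1 ▸ h.mem_U.2 ⟨ha, hd⟩)
  have h1 : φ (i, i⁻¹) ∈ T := by
    have := hc _ ht (φ (i, 1)) (mul_mem (mul_mem (h.mem_U.2 ⟨hi, one_mem _⟩) h.t_mem)
      (Subgroup.inv_mem _ (h.mem_U.2 ⟨hi, one_mem _⟩)))
    rw [h.comm_t, Subgroup.mul_mem_cancel_right _ ht] at this
    simpa using this
  have h2 : i⁻¹ * i⁻¹ = e := by rw [← mul_inv_rev, hii]; exact inv_eq_of_mul_eq_one_left h.ee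
  have h3 : φ (1, j) ∈ T := by
    have := mul_mem (Subgroup.inv_mem _ (cj h1 hi hi h2 hii)) (cj h1 hi (mul_mem hi hj) h2 hij)
    rw [← map_inv, ← map_mul] at this
    simpa using this
  have h4 : Q ≤ T.comap (φ.comp (MonoidHom.inr L L)) := h.gen.trans ((closure_le _).2 fun c H =>
    cj h3 (one_mem _) H.1 hjj H.2)
  refine h.sub_le ht fun d hd => ?_
  have e1 : φ d = t * φ (1, d.1) * t⁻¹ * φ (1, d.2) := by
    rw [h.sw, mul_inv_cancel_right, ← map_mul]; simp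
  rw [e1]
  exact mul_mem (mul_mem (mul_mem ht (h4 hd.1)) (Subgroup.inv_mem _ ht)) (h4 hd.2)

/-- the subgroup `{1, e}` -/
def E : Subgroup L where
  carrier := {a | a * a = 1}
  one_mem' := mul_one 1
  mul_mem' := fun {a b} ha hb => by
    rcases (h.inv a).1 ha with rfl | rfl <;> rcases (h.inv b).1 hb with rfl | rfl <;> simp [h.ee]
  inv_mem' := fun {a} ha => by
    change a⁻¹ * a⁻¹ = 1
    rw [← mul_inv_rev, show a * a = 1 from ha, inv_one]

instance : h.E.Normal := ⟨fun a ha g => by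
  change g * a * g⁻¹ * (g * a * g⁻¹) = 1
  rw [show g * a * g⁻¹ * (g * a * g⁻¹) = g * (a * a) * g⁻¹ by group, show a * a = 1 from ha]; group⟩

/-- the projection modulo `e` -/
def π : L →* L ⧸ h.E := QuotientGroup.mk' _

theorem π_eq {a b : L} : h.π a = h.π b ↔ a = b ∨ a = e * b := by
  rw [← mul_inv_eq_one, ← map_inv, ← map_mul]
  refine (QuotientGroup.eq_one_iff _).trans ((h.inv _).trans ?_)
  simp only [mul_inv_eq_iff_eq_mul, one_mul]

/-- the diagonal modulo `e` -/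
def Dg : Subgroup (L × L) := Q.prod Q ⊓ (h.π.comp (MonoidHom.fst L L)).eqLocus (h.π.comp (MonoidHom.snd L L))

/-- the image of `Q₈ ∘ D₈` -/
def R : Subgroup G := h.sub h.Dg fun _ hd => ⟨⟨hd.1.2, hd.1.1⟩, hd.2.symm⟩

theorem mem_R {a b : L} (ha : a ∈ Q) (hb : b ∈ Q) (H : h.π a = h.π b) : φ (a, b) ∈ h.R := h.mem_sub ⟨⟨ha, hb⟩, H⟩

theorem t_R : t ∈ h.R := h.t_mem

theorem z_R : φ (1, e) ∈ h.R := h.mem_R (one_mem _) h.eQ (h.π_eq.2 (.inr h.ee.symm))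

theorem R_le {K : Subgroup G} (ht : t ∈ K) (hz : φ (1, e) ∈ K) (hK : ∀ a ∈ Q, φ (a, a) ∈ K) : h.R ≤ K :=
  h.sub_le ht fun d hd => by
    rcases h.π_eq.1 hd.2.symm with H | H
    · rw [show d = (d.1, d.1) from Prod.ext rfl H]
      exact hK _ hd.1.1
    · rw [show d = (1, e) * (d.1, d.1) from Prod.ext (one_mul _).symm H, map_mul]
      exact mul_mem hz (hK _ hd.1.1)

theorem R_le_U : h.R ≤ h.U := h.sub_le h.t_U fun _ hd => h.mem_sub hd.1

theorem centric_R : h.U ⊓ Subgroup.centralizer (h.R : Set G) ≤ h.R := by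
  have key : ∀ d ∈ Q.prod Q, t * φ d = φ d * t → φ d ∈ h.R := fun d hd H => by
    rw [h.sw', mul_left_inj] at H
    exact h.mem_R hd.1 hd.2 (h.π_eq.2 ((h.eq_iff.1 H).imp And.right And.right))
  rintro _ ⟨⟨d, hd, rfl | rfl⟩, hc⟩
  · exact key d hd (hc _ h.t_R)
  · exact mul_mem (key d hd (by simpa [← mul_assoc] using hc _ h.t_R)) h.t_R

theorem π_sq (h8 : Nat.card Q = 8) {a : L} (ha : a ∈ Q) : h.π a * h.π a = 1 := by
  rw [← map_mul, ← map_one h.π, h.π_eq, mul_one, ← h.inv]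
  by_contra H
  have h1 : orderOf (⟨a, ha⟩ : Q) = Nat.card Q := by
    rw [h8]
    refine orderOf_eq_prime_pow (p := 2) (n := 2) (fun H' => H ?_) (by rw [← pow_card_eq_one', h8]; rfl)
    simpa [pow_succ, mul_assoc] using congrArg Subtype.val H'
  have : Finite Q := Nat.finite_of_card_ne_zero (by omega)
  have := isCyclic_of_orderOf_eq_card _ h1
  obtain ⟨i, hi, -, -, hii, -⟩ := h.quat
  rcases h.zq i hi fun c hc => congrArg Subtype.val
    ((IsCyclic.commGroup (α := Q)).mul_comm ⟨c, hc⟩ ⟨i, hi⟩) with rfl | rfl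
  · exact h.e1 (by simpa using hii.symm)
  · exact h.e1 (hii.symm.trans h.ee)

theorem π_comm (h8 : Nat.card Q = 8) {a b : L} (ha : a ∈ Q) (hb : b ∈ Q) : h.π (a * b * a⁻¹) = h.π b := by
  have h1 := h.π_sq h8 (mul_mem ha hb)
  rw [map_mul] at h1
  rw [map_mul, map_mul, map_inv, inv_eq_of_mul_eq_one_left (h.π_sq h8 ha), ← mul_left_inj (h.π b), h.π_sq h8 hb,
    mul_assoc, h1]

theorem U_le_normalizer_R [Finite G] (h8 : Nat.card Q = 8) : h.U ≤ Subgroup.normalizer (h.R : Set G) :=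
  h.sub_le (le_normalizer h.t_R) fun d hd => mem_normalizer_fintype fun _ hx =>
    h.sub_le (K := h.R.comap (MulAut.conj (φ d)).toMonoidHom) (by
      change φ (d.1, d.2) * t * (φ (d.1, d.2))⁻¹ ∈ h.R
      have h1 := mul_mem hd.1 (Subgroup.inv_mem _ hd.2)
      rw [h.comm_t]
      refine mul_mem (h.mem_R h1 (mul_mem hd.2 (Subgroup.inv_mem _ hd.1)) ?_) h.t_R
      rw [← inv_eq_of_mul_eq_one_left (h.π_sq h8 h1), ← map_inv, mul_inv_rev, inv_inv]) (fun c hc => by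
      change φ d * φ c * (φ d)⁻¹ ∈ h.R
      rw [← map_inv, ← map_mul, ← map_mul]
      exact h.mem_R (mul_mem (mul_mem hd.1 hc.1.1) (Subgroup.inv_mem _ hd.1))
        (mul_mem (mul_mem hd.2 hc.1.2) (Subgroup.inv_mem _ hd.2))
        ((h.π_comm h8 hd.1 hc.1.1).trans (hc.2.trans (h.π_comm h8 hd.2 hc.1.2).symm))) hx

theorem γ_diag (h8 : Nat.card Q = 8) {i : {i : L // i * i = e}} (hi : i.1 ∈ Q) {a : L} (ha : a ∈ Q) :
    ∃ b ∈ Q, γ i * φ (a, a) * (γ i)⁻¹ = φ (b, b) := by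
  rcases h.π_eq.1 (h.π_comm h8 ha hi) with H | H
  · exact ⟨a, ha, mul_inv_eq_iff_eq_mul.2 (h.gc i a (mul_inv_eq_iff_eq_mul.1 H))⟩
  · exact ⟨_, mul_mem hi ha, mul_inv_eq_iff_eq_mul.2 (h.gi i a (mul_inv_eq_iff_eq_mul.1 H))⟩

theorem γ_mem [Finite G] (h8 : Nat.card Q = 8) {i : {i : L // i * i = e}} (hi : i.1 ∈ Q) :
    γ i ∈ pGen 2 (Subgroup.normalizer (h.R : Set G)) := by
  refine Subgroup.subset_closure ⟨mem_normalizer_fintype fun _ hx =>
    h.R_le (K := h.R.comap (MulAut.conj (γ i)).toMonoidHom) ?_ ?_ (fun a ha => ?_) hx, ?_⟩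
  · exact (mul_inv_eq_iff_eq_mul.2 (h.gt i)).symm.subst (motive := (· ∈ h.R)) h.z_R
  · exact (mul_inv_eq_iff_eq_mul.2 (h.gz i)).symm.subst (motive := (· ∈ h.R)) h.t_R
  · obtain ⟨b, hb, H⟩ := h.γ_diag h8 hi ha
    exact H.symm.subst (motive := (· ∈ h.R)) (h.mem_R hb hb rfl)
  · refine ((Nat.dvd_prime_pow Nat.prime_two).1 (orderOf_dvd_of_pow_eq_one (n := 2 ^ 2) ?_)).imp fun _ H => H.2
    rw [show γ i ^ 2 ^ 2 = γ i * γ i * (γ i * γ i) by simp [pow_succ, mul_assoc], h.gg, ← map_mul, Prod.mk_mul_mk,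
      i.2, h.ker]
    exact .inr ⟨rfl, rfl⟩

theorem diag_mem_normalizer [Finite G] {w : L} (hw : w ∈ Subgroup.normalizer (Q : Set L)) :
    φ (w, w) ∈ Subgroup.normalizer (h.U : Set G) := mem_normalizer_fintype fun _ hx =>
  h.sub_le (K := h.U.comap (MulAut.conj (φ (w, w))).toMonoidHom) (by
    change φ (w, w) * t * (φ (w, w))⁻¹ ∈ h.U
    rw [h.comm_t]
    exact mul_mem (h.mem_U.2 ⟨by simp, by simp⟩) h.t_U) (fun c hc => by
    change φ (w, w) * φ c * (φ (w, w))⁻¹ ∈ h.U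
    rw [← map_inv, ← map_mul, ← map_mul]
    exact h.mem_U.2 ⟨(hw _).1 hc.1, (hw _).1 hc.2⟩) hx

theorem simple [Finite G] [Finite L] (S : Sylow 2 G) : (groupFusionSystem (S : Subgroup G)).IsSimple 2 := by
  refine group_simple_sylow h.sylIn_U (group_simple_of_gen h.sylIn_U (fun H => h.z_ne (mem_bot.1
    (H.le (h.mem_U.2 ⟨one_mem _, h.eQ⟩)))) h.closed fun g hg => ?_) S
  set K := closure {g | g ∈ Subgroup.normalizer (h.U : Set G) ∧
      (g ∈ Subgroup.centralizer (h.U : Set G) ∨ ∃ R ≤ h.U, h.U ≤ Subgroup.normalizer (R : Set G) ∧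
        h.U ⊓ Subgroup.centralizer (R : Set G) ≤ R ∧ g ∈ pGen 2 (Subgroup.normalizer (R : Set G)))} with hK
  have hU : h.U ≤ K := fun u hu => Subgroup.subset_closure ⟨le_normalizer hu, .inr ⟨_, le_rfl, le_normalizer,
    inf_le_left, Subgroup.subset_closure ⟨le_normalizer hu,
      (IsPGroup.iff_orderOf.1 h.isPGroup_U ⟨u, hu⟩).imp fun k hk => by rwa [orderOf_mk] at hk⟩⟩⟩
  have hQ : Q ≤ K.comap (φ.comp ((MonoidHom.id L).prod (MonoidHom.id L))) := fun a ha => hU (h.mem_U.2 ⟨ha, ha⟩)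
  have hN : Subgroup.normalizer (Q : Set L) ≤ K.comap (φ.comp ((MonoidHom.id L).prod (MonoidHom.id L))) := by
    rcases h.nrm with H | ⟨h8, h24⟩
    · exact H.le.trans hQ
    obtain ⟨i, hi, j, hj, hii, hjj, hij⟩ := h.quat
    obtain ⟨w, hw⟩ := h.gm ⟨i, hii⟩ ⟨j, hjj⟩
    have h1 : ∀ a b, γ ⟨i, hii⟩ * (γ ⟨j, hjj⟩ * φ (a, a) * (γ ⟨j, hjj⟩)⁻¹) * (γ ⟨i, hii⟩)⁻¹ = φ (b, b) →
        h.π (w * a * w⁻¹) = h.π b := fun a b H => by
      rw [show ∀ x y z : G, x * (y * z * y⁻¹) * x⁻¹ = x * y * z * (x * y)⁻¹ from fun _ _ _ => by group, hw,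
        ← map_inv, ← map_mul, ← map_mul] at H
      exact h.π_eq.2 ((h.eq_iff.1 H).imp And.left And.left)
    have hwN : w ∈ Subgroup.normalizer (Q : Set L) := mem_normalizer_fintype fun a ha => by
      obtain ⟨b, hb, H⟩ := h.γ_diag h8 (i := ⟨j, hjj⟩) hj ha
      obtain ⟨c, hc, H'⟩ := h.γ_diag h8 (i := ⟨i, hii⟩) hi hb
      rcases h.π_eq.1 (h1 a c (by rw [H, H'])) with H | H <;> rw [H]
      exacts [hc, mul_mem h.eQ hc]
    have hwQ : w ∉ Q := fun hwQ => by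
      have h2 : j * i = e * i * j := by
        calc j * i = i⁻¹ * (i * j * (i * j)) * j⁻¹ := by group
          _ = i⁻¹ * (i * i) * j⁻¹ := by rw [hij, hii]
          _ = i * (j * j)⁻¹ * i⁻¹ * i * j := by group
          _ = _ := by rw [hjj, inv_eq_of_mul_eq_one_left h.ee, h.ec]
      have h4 := h1 j (i * j) (by rw [mul_inv_eq_iff_eq_mul.2 (h.gc ⟨j, hjj⟩ j rfl),
        mul_inv_eq_iff_eq_mul.2 (h.gi ⟨i, hii⟩ j h2)])
      rw [h.π_comm h8 hwQ hj, eq_comm, h.π_eq, mul_eq_right, mul_left_inj] at h4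
      rcases h4 with rfl | rfl
      · exact h.e1 (by simpa using hii.symm)
      · exact h.e1 (hii.symm.trans h.ee)
    have h5 : Q ⊔ zpowers w ≤ Subgroup.normalizer (Q : Set L) := sup_le le_normalizer (zpowers_le.2 hwN)
    have h6 := card_dvd_of_le h5
    have h7 := card_dvd_of_le (le_sup_left : Q ≤ Q ⊔ zpowers w)
    have h9 : Nat.card (Q ⊔ zpowers w : Subgroup L) ≠ 8 := fun H => hwQ
      ((eq_of_le_of_card_le' le_sup_left (H.trans h8.symm).le).ge (mem_sup_right (mem_zpowers w)))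
    rw [h24] at h6
    rw [h8] at h7
    have h10 := Nat.le_of_dvd (by norm_num) h6
    refine (eq_of_le_of_card_le' h5 (h24.trans ?_).le).ge.trans (sup_le hQ (zpowers_le.2 ?_))
    · generalize Nat.card (Q ⊔ zpowers w : Subgroup L) = n at h6 h7 h9 h10
      interval_cases n <;> omega
    · exact Subgroup.subset_closure ⟨h.diag_mem_normalizer hwN, .inr ⟨_, h.R_le_U, h.U_le_normalizer_R h8,
        h.centric_R, hw.subst (motive := (· ∈ pGen 2 _)) (mul_mem (h.γ_mem h8 hi) (h.γ_mem h8 hj))⟩⟩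
  obtain ⟨a, ha, c, hc, H⟩ := h.of_mem_normalizer hg
  have h1 : φ (a, c * a) ∈ K := by
    rw [show (a, c * a) = (1, c) * (a, a) by simp, map_mul]
    exact mul_mem (hU (h.mem_U.2 ⟨one_mem _, hc⟩)) (hN ha)
  rcases H with rfl | rfl
  exacts [h1, mul_mem h1 (hU h.t_U)]

end WrInv

end CfsgLib.Fusion
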