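import Mathlib
import Cfsg.Agent.Lib.Fusion.WrSimple
import Cfsg.Agent.Lib.SL2.SylowTwo
import Cfsg.Agent.Lib.Symp.Basic

/-!
`PSp₄(q)` as a group of `2 × 2` matrices over `M₂(F)`; its `2`-fusion system is simple for odd `q`.
-/

set_option autoImplicit false

namespace CfsgLib.Fusion

open Cfsg Matrix MatrixGroups CfsgLib.SL2

variable {F : Type*} [Field F]

/-- hyperbolic pair and position in the pair -/
def spIdx : Fin 2 × Fin 2 ≃ Fin 2 ⊕ Fin 2 where
  toFun x := if x.2 = 0 then .inl x.1 else .inr x.1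
  invFun := Sum.elim (fun i => (i, 0)) fun i => (i, 1)
  left_inv := by decide
  right_inv := by decide

/-- block form with respect to the two hyperbolic pairs -/
def spBlk (F : Type*) [Field F] :
    Matrix (Fin 2) (Fin 2) (Matrix (Fin 2) (Fin 2) F) ≃+* Matrix (Fin 2 ⊕ Fin 2) (Fin 2 ⊕ Fin 2) F :=
  (compRingEquiv (Fin 2) (Fin 2) F).trans (reindexRingEquiv F spIdx)

theorem spBlk_apply (M : Matrix (Fin 2) (Fin 2) (Matrix (Fin 2) (Fin 2) F)) (r c : Fin 2 ⊕ Fin 2) :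
    spBlk F M r c = M (spIdx.symm r).1 (spIdx.symm c).1 (spIdx.symm r).2 (spIdx.symm c).2 := rfl

theorem spBlk_mem {a b c d : Matrix (Fin 2) (Fin 2) F} : spBlk F !![a, b; c, d] ∈ symplecticGroup (Fin 2) F ↔
    !![a, b; c, d] * !![adjugate a, adjugate c; adjugate b, adjugate d] = 1 := by
  set j : Matrix (Fin 2) (Fin 2) F := !![0, -1; 1, 0] with hj
  have h1 : J (Fin 2) F = spBlk F !![j, 0; 0, j] := by
    ext r c
    rcases r with r | r <;> rcases c with c | c <;> fin_cases r <;> fin_cases c <;>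
      simp [spBlk_apply, spIdx, J, hj]
  have h2 : (spBlk F !![a, b; c, d])ᵀ = spBlk F !![aᵀ, cᵀ; bᵀ, dᵀ] := by
    ext r c
    rcases r with r | r <;> rcases c with c | c <;> fin_cases r <;> fin_cases c <;> rfl
  have h3 : ∀ x : Matrix (Fin 2) (Fin 2) F, j * xᵀ = adjugate x * j := fun x => by
    ext r c
    fin_cases r <;> fin_cases c <;> simp [hj, adjugate_fin_two, mul_apply, Fin.sum_univ_succ]
  have h4 : !![j, 0; 0, j] * !![aᵀ, cᵀ; bᵀ, dᵀ] =
      !![adjugate a, adjugate c; adjugate b, adjugate d] * !![j, 0; 0, j] := by simp [h3]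
  have h5 : IsUnit !![j, 0; 0, j] := (isUnit_map_iff (spBlk F) _).1 (h1 ▸ (isUnit_iff_isUnit_det _).2 (isUnit_det_J _ _))
  rw [SymplecticGroup.mem_iff, h1, h2, ← map_mul, ← map_mul, (spBlk F).injective.eq_iff, Matrix.mul_assoc, h4,
    ← Matrix.mul_assoc, h5.mul_eq_right]

/-- `Sp₄` in block form -/
abbrev SpB (F : Type*) [Field F] := (symplecticGroup (Fin 2) F).comap (spBlk F).toMonoidHom

/-- the projection to `PSp₄` -/
def spπ (F : Type*) [Field F] : SpB F →* PSp 2 F :=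
  (QuotientGroup.mk' _).comp ((spBlk F).toMonoidHom.submonoidComap _)

theorem spπ_eq {x y : SpB F} : spπ F x = spπ F y ↔ x.1 = y.1 ∨ x.1 = -y.1 := by
  refine QuotientGroup.eq_iff_div_mem.trans (Symp.mem_center_iff.trans ?_)
  rw [div_eq_one, div_eq_iff_eq_mul, Subtype.ext_iff, Subtype.ext_iff]
  refine or_congr (spBlk F).apply_eq_iff_eq ?_
  change spBlk F x = -1 * spBlk F y ↔ _
  rw [neg_one_mul, ← map_neg, (spBlk F).injective.eq_iff]

theorem spπ_surj (g : PSp 2 F) : ∃ a b c d h, g = spπ F ⟨!![a, b; c, d], h⟩ := by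
  obtain ⟨⟨A, hA⟩, rfl⟩ := QuotientGroup.mk_surjective g
  obtain ⟨M, rfl⟩ := (spBlk F).surjective A
  exact ⟨M 0 0, M 0 1, M 1 0, M 1 1, (eta_fin_two M).subst (motive := (· ∈ SpB F)) hA,
    (spπ_eq (x := ⟨M, hA⟩)).2 (.inl (eta_fin_two M))⟩

/-- `SL₂ × SL₂` -/
def spδ (F : Type*) [Field F] : SL(2, F) × SL(2, F) →* SpB F where
  toFun d := ⟨!![d.1.1, 0; 0, d.2.1], spBlk_mem.2 (by simp [mul_adjugate, ← one_fin_two])⟩
  map_one' := Subtype.ext one_fin_two.symm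
  map_mul' c d := Subtype.ext (by simp)

/-- the interchange of the two hyperbolic pairs -/
def spt (F : Type*) [Field F] : SpB F := ⟨!![0, 1; 1, 0], spBlk_mem.2 (by simp [← one_fin_two])⟩

theorem neg_one_ne (h2 : (2 : F) ≠ 0) : (-1 : SL(2, F)) ≠ 1 := fun h => h2 (by
  have : (-1 : F) = 1 := congrArg (fun g : SL(2, F) => g 0 0) h
  linear_combination -this)

theorem tr_of_sq (h2 : (2 : F) ≠ 0) {i : SL(2, F)} (h : i * i = -1) : tr i = 0 :=
  (sq_eq_neg_one_of_isScal_sq (fun H => neg_one_ne h2 (h.symm.trans ((sq_eq_one_iff_isScal h2 i).2 H)))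
    ((isScal_iff _).2 (.inr h))).1

theorem det_half (h2 : (2 : F) ≠ 0) (i : {i : SL(2, F) // i * i = -1}) :
    ((2 : F)⁻¹ • (1 + i.1.1)).det = 2⁻¹ := by
  have h1 := det_eq i.1
  have h3 := tr_of_sq h2 i.2
  rw [tr] at h3
  rw [det_smul, det_fin_two]
  simp only [Matrix.add_apply, one_apply_eq, ne_eq, zero_ne_one, not_false_eq_true, one_apply_ne, one_ne_zero,
    Fintype.card_fin]
  field_simp
  linear_combination h1 + h3

/-- the elements `(1 + i) / 2 ⊗ [1 1; 1 -1]` -/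
def spγ (h2 : (2 : F) ≠ 0) (i : {i : SL(2, F) // i * i = -1}) : SpB F :=
  ⟨!![(2 : F)⁻¹ • (1 + i.1.1), (2 : F)⁻¹ • (1 + i.1.1); (2 : F)⁻¹ • (1 + i.1.1), -((2 : F)⁻¹ • (1 + i.1.1))],
    spBlk_mem.2 (by
      have h1 := mul_adjugate ((2 : F)⁻¹ • (1 + i.1.1))
      rw [det_half h2] at h1
      generalize (2 : F)⁻¹ • (1 + i.1.1) = β at h1
      have h3 : adjugate (-β) = -adjugate β := by simp [adjugate_fin_two]
      have h4 : (2 : F)⁻¹ + 2⁻¹ = 1 := by field_simp; norm_num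
      simp [h3, h1, ← add_smul, h4, ← one_fin_two])⟩

theorem spγ_mul (h2 : (2 : F) ≠ 0) (i j : {i : SL(2, F) // i * i = -1}) : ∃ w : SL(2, F),
    w.1 = (2 : F)⁻¹ • ((1 + i.1.1) * (1 + j.1.1)) ∧ spγ h2 i * spγ h2 j = spδ F (w, w) := by
  have h1 : (2 : F)⁻¹ • ((1 + i.1.1) * (1 + j.1.1)) =
      (2 : F) • (((2 : F)⁻¹ • (1 + i.1.1)) * ((2 : F)⁻¹ • (1 + j.1.1))) := by
    rw [smul_mul_smul_comm, smul_smul]; congr 1; field_simp
  refine ⟨⟨_, ?_⟩, rfl, Subtype.ext ?_⟩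
  · rw [h1, det_smul, det_mul, det_half h2, det_half h2, Fintype.card_fin]; field_simp
  · change (spγ h2 i).1 * (spγ h2 j).1 = !![(2 : F)⁻¹ • ((1 + i.1.1) * (1 + j.1.1)), 0;
      0, (2 : F)⁻¹ • ((1 + i.1.1) * (1 + j.1.1))]
    rw [h1, two_smul, spγ, spγ]
    simp only [mul_fin_two, Matrix.neg_mul, Matrix.mul_neg, neg_neg, add_neg_cancel]

theorem wrInv_psp4 [Fintype F] (hodd : Odd (Fintype.card F)) (h2 : (2 : F) ≠ 0) (Q : Sylow 2 SL(2, F)) :
    WrInv ((spπ F).comp (spδ F)) (spπ F (spt F)) (-1) (Q : Subgroup SL(2, F)) fun i => spπ F (spγ h2 i) := by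
  have hz : ∀ x : Matrix (Fin 2) (Fin 2) F, x = -x → x = 0 := fun x h =>
    (smul_eq_zero.1 (show (2 : F) • x = 0 by rw [two_smul]; exact eq_neg_iff_add_eq_zero.1 h)).resolve_left h2
  have mm : ∀ {x y z w : SpB F}, x.1 * y.1 = z.1 * w.1 → spπ F x * spπ F y = spπ F z * spπ F w := fun h => by
    rw [← map_mul, ← map_mul]
    exact spπ_eq.2 (.inl h)
  obtain ⟨z, hzQ, hz0, hN⟩ := exists_sylow_two_le_normalizer hodd Q
  have h4 : tr z ^ 2 ≠ 4 := by
    rw [hz0]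
    exact fun h => h2 (pow_eq_zero_iff (two_ne_zero) |>.1 (by linear_combination -h))
  have sq : ∀ g ∈ (Q : Subgroup SL(2, F)), g ∉ Subgroup.centralizer {z} → g * g = -1 := fun g hg hc =>
    (sq_eq_neg_one_of_inverts h4 (conj_eq_inv_of_mem_normalizer h4 (hN hg) hc)).2
  obtain ⟨s, hs, hsc⟩ := SetLike.not_le_iff_exists.1 (sylow_two_not_le_centralizer hodd Q (not_isScal_of_tr h4))
  have hzc : z ∈ Subgroup.centralizer {z} := Subgroup.mem_centralizer_singleton_iff.2 rfl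
  refine ⟨fun a b => ?_, ?_, fun a b => mm ?_, fun d h => ?_, neg_one_ne h2,
    fun a => (sq_eq_one_iff_isScal h2 a).trans (isScal_iff a), fun g hg => ?_, sylIn_top Q, fun a ha h => ?_,
    fun c d hc hd => isConj_of_tr_eq (by rwa [tr_of_sq h2 hc, ← hz0]) (by rw [tr_of_sq h2 hc, tr_of_sq h2 hd]),
    fun g hg => ?_, ⟨z, hzQ, s, hs, ?_, sq s hs hsc, sq _ (mul_mem hzQ hs) ?_⟩, ?_, fun i => mm ?_, fun i => mm ?_,
    fun i => ?_, fun i a h => mm ?_, fun i a h => mm ?_, fun i j => ?_⟩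
  · rw [← map_one (spπ F)]
    refine spπ_eq.trans ?_
    have h1 : ∀ x y : SL(2, F), x = y ↔ x.1 = y.1 := fun _ _ => Subtype.ext_iff
    simp [spδ, h1, one_fin_two (α := Matrix (Fin 2) (Fin 2) F)]
  · rw [← map_mul, ← map_one (spπ F)]
    exact spπ_eq.2 (.inl (by simp [spt, ← one_fin_two]))
  · simp [spt, spδ]
  · simpa [spt, spδ] using spπ_eq.1 h
  · obtain ⟨a, b, c, d, hm, rfl⟩ := spπ_surj g
    have h1 := spBlk_mem.1 hm
    have h3 := spπ_eq.1 (((map_mul (spπ F) _ _).trans hg).trans (map_mul (spπ F) (spδ F (1, -1)) _).symm)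
    have h5 : ∀ x : Matrix (Fin 2) (Fin 2) F, x * adjugate x = 1 → x.det = 1 := fun x h => by
      simpa [mul_adjugate] using congrFun (congrFun h 0) 0
    simp [spδ] at h3
    rcases h3 with ⟨h6, h7⟩ | ⟨h6, h7⟩
    · obtain rfl := hz b h6.symm
      obtain rfl := hz c h7
      simp [one_fin_two (α := Matrix (Fin 2) (Fin 2) F)] at h1
      exact ⟨⟨a, h5 a h1.1⟩, ⟨d, h5 d h1.2⟩, .inl rfl⟩
    · obtain rfl := hz a h6
      obtain rfl := hz d h7.symm
      simp [one_fin_two (α := Matrix (Fin 2) (Fin 2) F)] at h1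
      exact ⟨⟨b, h5 b h1.1⟩, ⟨c, h5 c h1.2⟩, .inr ((spπ_eq.2 (.inl (by simp [spδ, spt]))).trans
        (map_mul (spπ F) (spδ F _) _))⟩
  · exact (isScal_iff a).1 ((mem_center_iff_isScal a).1 ((centralizer_sylow_two hodd Q).le h))
  · by_cases hc : g ∈ Subgroup.centralizer {z}
    · rw [show g = g * s * s⁻¹ by group]
      exact mul_mem (Subgroup.subset_closure ⟨mul_mem hg hs, sq _ (mul_mem hg hs) fun h =>
        hsc ((Subgroup.mul_mem_cancel_left _ hc).1 h)⟩) (inv_mem (Subgroup.subset_closure ⟨hs, sq s hs hsc⟩))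
    · exact Subgroup.subset_closure ⟨hg, sq g hg hc⟩
  · rw [← eq_mul_inv_iff_mul_eq, inv_eq_neg_of_tr hz0]; simp
  · exact fun h => hsc ((Subgroup.mul_mem_cancel_left _ hzc).1 h)
  · by_cases h16 : 16 ∣ Nat.card SL(2, F)
    exacts [.inl (normalizer_sylow_two_eq hodd Q h16), .inr (card_normalizer_sylow_two hodd Q h16)]
  · simp [spt, spδ, spγ]
  · simp [spt, spδ, spγ]
  · obtain ⟨w, h1, h3⟩ := spγ_mul h2 i i
    have h5 : i.1.1 * i.1.1 = -1 := congrArg Subtype.val i.2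
    rw [← map_mul, h3, show w = i.1 from Subtype.ext (by
      rw [h1, show (1 + i.1.1) * (1 + i.1.1) = i.1.1 + i.1.1 + (1 + i.1.1 * i.1.1) by noncomm_ring, h5,
        add_neg_cancel, add_zero, ← two_smul F, smul_smul, inv_mul_cancel₀ h2, one_smul])]
    rfl
  · have h5 : a.1 * i.1.1 = i.1.1 * a.1 := congrArg Subtype.val h
    simp [spδ, spγ, Matrix.mul_add, Matrix.add_mul, h5]
  · have h5 : a.1 * i.1.1 = -1 * i.1.1 * a.1 := congrArg Subtype.val h
    have h6 : i.1.1 * i.1.1 = -1 := congrArg Subtype.val i.2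
    simp [spδ, spγ, Matrix.mul_add, Matrix.add_mul, h5, Matrix.mul_assoc, ← Matrix.mul_assoc i.1.1 i.1.1, h6, add_comm]
  · obtain ⟨w, -, h3⟩ := spγ_mul h2 i j
    exact ⟨w, (map_mul _ _ _).symm.trans (congrArg _ h3)⟩

theorem psp4_simple [Fintype F] (hodd : Fintype.card F % 2 = 1) (S : Sylow 2 (PSp 2 F)) :
    (groupFusionSystem (S : Subgroup (PSp 2 F))).IsSimple 2 := by
  have h2 : (2 : F) ≠ 0 := Ring.two_ne_zero fun h => by
    rw [FiniteField.even_card_iff_char_two] at h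
    omega
  exact (wrInv_psp4 (Nat.odd_iff.2 hodd) h2 default).simple S

end CfsgLib.Fusion
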